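import Mathlib
import Cfsg.Agent.S0986
import Cfsg.Agent.Lib.Helper17.Simple

set_option autoImplicit false

namespace Cfsg.Agent.Lib.Helper17

variable {G : Type*} [Group G] [Finite G]

omit [Finite G] in
/-- In a simple group the normalizer of a nontrivial proper subgroup is proper. -/
theorem normalizer_ne_top_of_simple [IsSimpleGroup G] (D : Subgroup G) (h1 : D ≠ ⊥) (h2 : D ≠ ⊤) :
    Subgroup.normalizer (D : Set G) ≠ ⊤ := by
  intro h
  have hn : D.Normal := Subgroup.normalizer_eq_top_iff.mp h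
  rcases hn.eq_bot_or_eq_top with h | h
  · exact h1 h
  · exact h2 h

/-- Tame intersections: if `n_p ≢ 1 mod p^k` there is a `p`-subgroup `D` of order `p^d` with
`a < d + k` whose normalizer has order `p^b * m'`, `d < b ≤ a`, `m' ∣ m`, with a number `n ≠ 1`
of Sylow subgroups, `n ∣ m'`, `n ≡ 1 mod p^(b-d)`. -/
theorem exists_tame (p a m k : ℕ) [Fact p.Prime] (hcard : Nat.card G = p ^ a * m) (hm : ¬ p ∣ m)
    (h : ¬ Nat.card (Sylow p G) ≡ 1 [MOD p ^ k]) :
    ∃ (D : Subgroup G) (d b m' n : ℕ), Nat.card D = p ^ d ∧ a < d + k ∧ d < b ∧ b ≤ a ∧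
      Nat.card (Subgroup.normalizer (D : Set G)) = p ^ b * m' ∧ m' ∣ m ∧
      n ∣ m' ∧ n % p ^ (b - d) = 1 ∧ n ≠ 1 := by
  classical
  have hpp : p.Prime := Fact.out
  have hm0 : m ≠ 0 := fun h0 => hm (h0 ▸ dvd_zero p)
  obtain ⟨P₀, R₀, hne₀, hidx₀⟩ := Cfsg.Agent.S0985.result p k h
  have hk : k ≠ 0 := by
    rintro rfl
    apply h
    simp [Nat.ModEq, Nat.mod_one]
  -- choose a pair of distinct Sylow subgroups with maximal intersection
  obtain ⟨⟨P, Q⟩, hPQ, hmax⟩ := Set.exists_max_image {PQ : Sylow p G × Sylow p G | PQ.1 ≠ PQ.2}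
    (fun PQ => Nat.card ↥((PQ.1 : Subgroup G) ⊓ (PQ.2 : Subgroup G))) (Set.toFinite _)
    ⟨(P₀, R₀), hne₀⟩
  have hPQ' : P ≠ Q := hPQ
  have hmax' : ∀ P' Q' : Sylow p G, P' ≠ Q' → Nat.card ↥((P' : Subgroup G) ⊓ (Q' : Subgroup G))
      ≤ Nat.card ↥((P : Subgroup G) ⊓ (Q : Subgroup G)) := fun P' Q' hne => hmax (P', Q') hne
  obtain ⟨h1, h2, -⟩ := Cfsg.Agent.S0986.result p P Q hPQ' hmax'
  set D : Subgroup G := (P : Subgroup G) ⊓ (Q : Subgroup G) with hD
  set N : Subgroup G := Subgroup.normalizer (D : Set G) with hN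
  have hDN : D ≤ N := Subgroup.le_normalizer
  have hDpg : IsPGroup p D := P.2.to_le inf_le_left
  obtain ⟨d, hd⟩ := hDpg.exists_card_eq
  have hcardsub : ∀ K : Subgroup G, K ≤ N → Nat.card (K.subgroupOf N) = Nat.card K := fun K hK =>
    Nat.card_congr (Subgroup.subgroupOfEquivOfLe hK).toEquiv
  -- the index of P₀ ⊓ R₀ in P₀
  have hcardP₀ : Nat.card (P₀ : Subgroup G) = p ^ a := card_sylow_eq_of_card_eq p a m hcard hm P₀
  have hle1 : p ^ a ≤ p ^ d * p ^ (k - 1) := by
    have e1 : Nat.card ((R₀ : Subgroup G).subgroupOf (P₀ : Subgroup G)) *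
        ((R₀ : Subgroup G).subgroupOf (P₀ : Subgroup G)).index = Nat.card (P₀ : Subgroup G) :=
      Subgroup.card_mul_index _
    have e2 : Nat.card ((R₀ : Subgroup G).subgroupOf (P₀ : Subgroup G)) =
        Nat.card ↥((P₀ : Subgroup G) ⊓ (R₀ : Subgroup G)) := by
      rw [← Subgroup.inf_subgroupOf_left (R₀ : Subgroup G) (P₀ : Subgroup G)]
      exact Nat.card_congr (Subgroup.subgroupOfEquivOfLe inf_le_left).toEquiv
    have e3 := hmax' P₀ R₀ hne₀
    rw [← hcardP₀, ← e1, e2]
    calc Nat.card ↥((P₀ : Subgroup G) ⊓ (R₀ : Subgroup G)) *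
          ((R₀ : Subgroup G).subgroupOf (P₀ : Subgroup G)).index
        ≤ Nat.card D * p ^ (k - 1) := Nat.mul_le_mul e3 hidx₀
      _ = p ^ d * p ^ (k - 1) := by rw [hd]
  have had : a < d + k := by
    rw [← pow_add] at hle1
    have := (Nat.pow_le_pow_iff_right hpp.one_lt).mp hle1
    omega
  -- Sylow subgroups of N
  obtain ⟨S⟩ := (Sylow.nonempty : Nonempty (Sylow p N))
  obtain ⟨b, hb⟩ := S.2.exists_card_eq
  have hNcard : Nat.card N = p ^ b * (S : Subgroup N).index := by
    rw [← hb, Subgroup.card_mul_index]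
  have hcop : Nat.Coprime ((S : Subgroup N).index) p := by
    rw [Nat.coprime_comm, Nat.Prime.coprime_iff_not_dvd hpp]
    exact S.not_dvd_index
  have hNG : Nat.card N ∣ p ^ a * m := hcard ▸ Subgroup.card_subgroup_dvd_card N
  have hm' : (S : Subgroup N).index ∣ m := by
    have : (S : Subgroup N).index ∣ p ^ a * m := (Dvd.intro_left _ hNcard.symm).trans hNG
    exact (hcop.pow_right a).dvd_of_dvd_mul_left this
  have hba : b ≤ a := by
    have : p ^ b ∣ p ^ a * m := (Dvd.intro _ hNcard.symm).trans hNG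
    have hcop2 : Nat.Coprime (p ^ b) m := by
      apply Nat.Coprime.pow_left
      rw [Nat.Prime.coprime_iff_not_dvd hpp]
      exact hm
    have := hcop2.dvd_of_dvd_mul_right this
    exact (Nat.pow_dvd_pow_iff_le_right hpp.one_lt).mp this
  -- distinct Sylow subgroups of N
  have hnt : Nontrivial (Sylow p N) := Finite.one_lt_card_iff_nontrivial.mp h1
  have hDS : ∀ T : Sylow p N, D.subgroupOf N ≤ (T : Subgroup N) := by
    intro T
    have hpg : IsPGroup p (D.subgroupOf N) := hDpg.comap_subtype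
    exact hpg.le_sylow_of_normal T
  have hcardS : ∀ T : Sylow p N, Nat.card (T : Subgroup N) = p ^ b := by
    intro T
    rw [← hb, Sylow.card_eq_multiplicity, Sylow.card_eq_multiplicity]
  have hdb : d < b := by
    obtain ⟨T, hT⟩ := exists_ne S
    have hle := Subgroup.card_le_of_le (hDS S)
    rw [hcardsub D hDN, hd, hb] at hle
    have hdb' : d ≤ b := (Nat.pow_le_pow_iff_right hpp.one_lt).mp hle
    rcases hdb'.lt_or_eq with h | h
    · exact h
    · exfalso
      have heq : D.subgroupOf N = (S : Subgroup N) :=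
        Subgroup.eq_of_le_of_card_ge (hDS S) (by rw [hcardsub D hDN, hd, hb, h])
      have h3 := h2 S T (Ne.symm hT)
      rw [heq] at h3
      have hST : (S : Subgroup N) ≤ (T : Subgroup N) := inf_eq_left.mp h3
      exact hT (Sylow.ext (S.3 T.2 hST))
  refine ⟨D, d, b, (S : Subgroup N).index, Nat.card (Sylow p N), hd, had, hdb, hba, hNcard, hm',
    S.card_dvd_index, ?_, by omega⟩
  -- the congruence
  have hmod : Nat.card (Sylow p N) ≡ 1 [MOD p ^ (b - d)] := by
    by_contra hcon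
    obtain ⟨S₁, S₂, hne, hidx⟩ := Cfsg.Agent.S0985.result p (b - d) hcon
    have e1 : Nat.card ((S₂ : Subgroup N).subgroupOf (S₁ : Subgroup N)) *
        ((S₂ : Subgroup N).subgroupOf (S₁ : Subgroup N)).index = Nat.card (S₁ : Subgroup N) :=
      Subgroup.card_mul_index _
    have e2 : Nat.card ((S₂ : Subgroup N).subgroupOf (S₁ : Subgroup N)) = p ^ d := by
      rw [← Subgroup.inf_subgroupOf_left (S₂ : Subgroup N) (S₁ : Subgroup N),
        Nat.card_congr (Subgroup.subgroupOfEquivOfLe inf_le_left).toEquiv, h2 S₁ S₂ hne,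
        hcardsub D hDN, hd]
    rw [e2, hcardS S₁] at e1
    have e3 : ((S₂ : Subgroup N).subgroupOf (S₁ : Subgroup N)).index = p ^ (b - d) := by
      have : p ^ b = p ^ d * p ^ (b - d) := by rw [← pow_add]; congr 1; omega
      rw [this] at e1
      exact Nat.eq_of_mul_eq_mul_left (pow_pos hpp.pos d) e1
    rw [e3] at hidx
    have := (Nat.pow_le_pow_iff_right hpp.one_lt).mp hidx
    omega
  have hlt : 1 < p ^ (b - d) := Nat.one_lt_pow (by omega) hpp.one_lt
  rw [Nat.ModEq, Nat.mod_eq_of_lt hlt] at hmod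
  exact hmod

/-- A decidable check: every configuration allowed by `exists_tame` gives a normalizer whose
index `i` is `1` or has `¬ 2 * N ∣ i!`. -/
def TameCheck (p a m k : ℕ) : Prop :=
  ∀ d ∈ List.range a, ∀ b ∈ List.range (a + 1), ∀ m' ∈ List.range (m + 1),
    a < d + k → d < b → m' ∣ m →
      (∃ n ∈ List.range (m' + 1), n ∣ m' ∧ n % p ^ (b - d) = 1 ∧ n ≠ 1) →
      (p ^ (a - b) * (m / m') = 1 ∨ ¬ (2 * (p ^ a * m)) ∣ (p ^ (a - b) * (m / m')).factorial)

instance (p a m k : ℕ) : Decidable (TameCheck p a m k) := by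
  unfold TameCheck; infer_instance

/-- If the tame-intersection check succeeds, the number of Sylow `p`-subgroups of a simple group
of order `p^a * m` is `1` modulo `p^k`. -/
theorem card_sylow_modEq_of_tameCheck [IsSimpleGroup G] (hG : ¬ (Nat.card G).Prime)
    (p a m k : ℕ) [Fact p.Prime] (hcard : Nat.card G = p ^ a * m) (hm : ¬ p ∣ m) (hk : k ≤ a)
    (hcheck : TameCheck p a m k) : Nat.card (Sylow p G) ≡ 1 [MOD p ^ k] := by
  by_contra h
  have hpp : p.Prime := Fact.out
  have hm0 : m ≠ 0 := fun h0 => hm (h0 ▸ dvd_zero p)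
  obtain ⟨D, d, b, m', n, hd, had, hdb, hba, hN, hm', hn1, hn2, hn3⟩ := exists_tame p a m k hcard hm h
  have hm'0 : m' ≠ 0 := fun h0 => hm0 (by rw [h0] at hm'; exact zero_dvd_iff.mp hm')
  have hm'le : m' ≤ m := Nat.le_of_dvd (Nat.pos_of_ne_zero hm0) hm'
  have hnle : n ≤ m' := Nat.le_of_dvd (Nat.pos_of_ne_zero hm'0) hn1
  have hD1 : D ≠ ⊥ := by
    intro h0
    rw [h0, Subgroup.card_bot] at hd
    have : 1 < p ^ d := Nat.one_lt_pow (by omega) hpp.one_lt
    omega
  have hD2 : D ≠ ⊤ := by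
    intro h0
    rw [h0, Subgroup.card_top, hcard] at hd
    have h1 : p ^ d < p ^ a := Nat.pow_lt_pow_right hpp.one_lt (by omega)
    have h2 : p ^ a ≤ p ^ a * m := Nat.le_mul_of_pos_right _ (Nat.pos_of_ne_zero hm0)
    omega
  have hNtop := normalizer_ne_top_of_simple D hD1 hD2
  have hT3 := two_mul_card_dvd_factorial_index hG _ hNtop
  have hidx : (Subgroup.normalizer (D : Set G)).index = p ^ (a - b) * (m / m') := by
    have h1 := Subgroup.index_mul_card (Subgroup.normalizer (D : Set G))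
    rw [hN, hcard] at h1
    obtain ⟨c, hc⟩ := hm'
    have h2 : p ^ a = p ^ (a - b) * p ^ b := by rw [← pow_add]; congr 1; omega
    have h3 : m / m' = c := by rw [hc]; exact Nat.mul_div_cancel_left c (Nat.pos_of_ne_zero hm'0)
    rw [h3]
    have h4 : (Subgroup.normalizer (D : Set G)).index * (p ^ b * m') =
        (p ^ (a - b) * c) * (p ^ b * m') := by
      rw [h1, h2, hc]; ring
    exact Nat.eq_of_mul_eq_mul_right (Nat.mul_pos (pow_pos hpp.pos b) (Nat.pos_of_ne_zero hm'0)) h4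
  have key := hcheck d (List.mem_range.mpr (by omega)) b (List.mem_range.mpr (by omega)) m'
    (List.mem_range.mpr (by omega)) had hdb hm'
    ⟨n, List.mem_range.mpr (by omega), hn1, hn2, hn3⟩
  rw [hidx, hcard] at hT3
  rcases key with key | key
  · rw [← hidx] at key
    exact hNtop (Subgroup.index_eq_one.mp key)
  · exact key hT3

end Cfsg.Agent.Lib.Helper17
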